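import Cfsg.Agent.H51.Mult
import Cfsg.Agent.R01.PSUSix

/-!
# The 2-part of a perfect central 2-extension of `SU₆(2)`

`exists_two`: a perfect central extension `φ : L → SU₆(2)` whose kernel is a 2-group has a quotient `K = L / M`
(`M` = the elements of order 3 of the kernel of `L → PSU₆(2)`) that is a perfect central 2-extension of `PSU₆(2)`
with the same kernel.
-/

set_option autoImplicit false

namespace Cfsg.Agent.H109.US

open Subgroup Cfsg Cfsg.Agent.LieClassical.HermBasic Cfsg.Agent.ClassicalGeometry.UnitTransv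
  Cfsg.Agent.SporadicStructure.UnitTwo Cfsg.Agent.R01.PSUSix Cfsg.Agent.H51.Mult
open Cfsg.Agent.ClassicalGeometry.UnitAutBasic (pr pr_surjective exists_scalar_of_mem_center)
open scoped commutatorElement

/-- In a perfect group, an element that commutes with everything modulo a central subgroup is central. -/
theorem mem_center_of_perfect {L : Type*} [Group L] (hL : commutator L = ⊤) {n : L}
    (h : ∀ g : L, ⁅n, g⁆ ∈ center L) : n ∈ center L := by
  let δ : L →* L := MonoidHom.mk' (fun g => ⁅n, g⁆) (by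
    intro a b
    have h1 := mem_center_iff.1 (h b) a
    have e : ⁅n, a * b⁆ = ⁅n, a⁆ * (a * ⁅n, b⁆ * a⁻¹) := by
      simp only [commutatorElement_def]; group
    rw [e, h1, mul_inv_cancel_right])
  have hδ : ∀ g, δ g = 1 := by
    intro g
    have h1 : g ∈ commutator L := by rw [hL]; exact mem_top g
    have h2 : commutator L ≤ δ.ker := by
      rw [commutator_def, commutator_le]
      intro a _ b _
      rw [MonoidHom.mem_ker, map_commutatorElement]
      rw [commutatorElement_eq_one_iff_mul_comm]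
      exact (mem_center_iff.1 (h a) _).symm
    exact MonoidHom.mem_ker.1 (h2 h1)
  rw [mem_center_iff]
  intro g
  exact (commutatorElement_eq_one_iff_mul_comm.1 (hδ g)).symm

variable {F : Type} [Field F] [Fintype F] (hF : Fintype.card F = 2 ^ 2)

include hF

theorem center_cube {z : SU 6 F 2} (hz : z ∈ center (SU 6 F 2)) : z ^ 3 = 1 := by
  obtain ⟨c, hc, hx⟩ := exists_scalar_of_mem_center hF (by norm_num) hz
  have hx' : ∀ x, act z x = c • x := hx
  refine ext_act fun x => ?_
  rw [pow_succ, pow_two, act_mul, act_mul, hx', hx', hx', act_one, smul_smul, smul_smul]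
  have e : c * c * c = 1 := by rw [← hc]; ring
  rw [e, one_smul]

theorem exists_two {L : Type} [Group L] [Finite L] {φ : L →* SU 6 F 2} (hφ : PCE φ) (h2 : IsPGroup 2 φ.ker) :
    ∃ (K : Type) (_ : Group K) (_ : Finite K) (q : L →* K) (f : K →* PSU 6 F 2), Function.Surjective q ∧
      f.comp q = (pr 6 F 2).comp φ ∧ Function.Surjective f ∧ f.ker ≤ center K ∧ IsPGroup 2 f.ker ∧
      commutator K = ⊤ ∧ (∀ x : L, q x = 1 → φ x = 1 → x = 1) ∧
      (∀ z : K, f z = 1 → ∃ ζ : L, φ ζ = 1 ∧ q ζ = z) := by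
  set g : L →* PSU 6 F 2 := (pr 6 F 2).comp φ with hg
  have hgc : ∀ x : L, g x = 1 → φ x ∈ center (SU 6 F 2) := fun x hx =>
    (QuotientGroup.eq_one_iff (φ x)).1 hx
  have hN : ∀ x : L, g x = 1 → x ∈ center L := by
    intro x hx
    refine mem_center_of_perfect hφ.perf fun y => hφ.cen ?_
    rw [MonoidHom.mem_ker, map_commutatorElement, commutatorElement_eq_one_iff_mul_comm]
    exact (mem_center_iff.1 (hgc x hx) _).symm
  have h3 : ∀ x : L, g x = 1 → φ (x ^ 3) = 1 := by
    intro x hx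
    rw [map_pow]
    exact center_cube hF (hgc x hx)
  -- the subgroup `M`
  let M : Subgroup L :=
    { carrier := {x | g x = 1 ∧ x ^ 3 = 1}
      one_mem' := ⟨map_one _, one_pow 3⟩
      mul_mem' := by
        rintro a b ⟨ha, ha3⟩ ⟨hb, hb3⟩
        refine ⟨by rw [map_mul, ha, hb, mul_one], ?_⟩
        have hcm : Commute a b := mem_center_iff.1 (hN b hb) a
        rw [hcm.mul_pow, ha3, hb3, mul_one]
      inv_mem' := by
        rintro a ⟨ha, ha3⟩
        exact ⟨by rw [map_inv, ha, inv_one], by rw [inv_pow, ha3, inv_one]⟩ }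
  have hM : ∀ x, x ∈ M ↔ g x = 1 ∧ x ^ 3 = 1 := fun x => Iff.rfl
  have hMn : M.Normal := normal_of_le_center fun x hx => hN x hx.1
  have hle : M ≤ g.ker := fun x hx => hx.1
  have hfq : ∀ x, QuotientGroup.lift M g hle (QuotientGroup.mk' M x) = g x := fun x => rfl
  have hq1 : ∀ x, QuotientGroup.mk' M x = 1 ↔ x ∈ M := fun x => QuotientGroup.eq_one_iff x
  have hgs : Function.Surjective g := pr_surjective.comp hφ.surj
  -- the 2-power
  have hpow : ∀ x : L, g x = 1 → ∃ k : ℕ, (QuotientGroup.mk' M x) ^ (2 ^ k) = 1 := by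
    intro x hx
    obtain ⟨k, hk⟩ := h2 ⟨x ^ 3, h3 x hx⟩
    have hk' : (x ^ 3) ^ (2 ^ k) = 1 := by
      have := congrArg Subtype.val hk
      simpa using this
    refine ⟨k, ?_⟩
    rw [← map_pow, hq1, hM, map_pow, hx, one_pow]
    refine ⟨rfl, ?_⟩
    rw [← pow_mul, mul_comm, pow_mul]
    exact hk'
  refine ⟨L ⧸ M, inferInstance, inferInstance, QuotientGroup.mk' M, QuotientGroup.lift M g hle,
    QuotientGroup.mk'_surjective M, ?_, ?_, ?_, ?_, ?_, ?_, ?_⟩
  · ext x; rfl
  · intro y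
    obtain ⟨x, hx⟩ := hgs y
    exact ⟨QuotientGroup.mk' M x, by rw [hfq, hx]⟩
  · intro z hz
    obtain ⟨x, rfl⟩ := QuotientGroup.mk'_surjective M z
    rw [MonoidHom.mem_ker, hfq] at hz
    rw [mem_center_iff]
    intro y
    obtain ⟨y, rfl⟩ := QuotientGroup.mk'_surjective M y
    rw [← map_mul, ← map_mul, mem_center_iff.1 (hN x hz) y]
  · rintro ⟨z, hz⟩
    obtain ⟨x, rfl⟩ := QuotientGroup.mk'_surjective M z
    rw [MonoidHom.mem_ker, hfq] at hz
    obtain ⟨k, hk⟩ := hpow x hz
    exact ⟨k, Subtype.ext hk⟩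
  · exact Cfsg.Agent.KFacts.MulDef.commutator_top_of_surj (QuotientGroup.mk' M)
      (QuotientGroup.mk'_surjective M) hφ.perf
  · intro x hx hx1
    have h4 := (hM x).1 ((hq1 x).1 hx)
    obtain ⟨k, hk⟩ := h2 ⟨x, hx1⟩
    have hk' : x ^ (2 ^ k) = 1 := by
      have := congrArg Subtype.val hk
      simpa using this
    have h5 : orderOf x ∣ 3 := orderOf_dvd_of_pow_eq_one h4.2
    have h6 : orderOf x ∣ 2 ^ k := orderOf_dvd_of_pow_eq_one hk'
    have h7 : Nat.Coprime 3 (2 ^ k) := Nat.Coprime.pow_right k (by norm_num)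
    exact orderOf_eq_one_iff.1 (Nat.dvd_one.1 (h7 ▸ Nat.dvd_gcd h5 h6))
  · intro z hz
    obtain ⟨x, rfl⟩ := QuotientGroup.mk'_surjective M z
    rw [hfq] at hz
    obtain ⟨k, hk⟩ := hpow x hz
    have h6 : orderOf (QuotientGroup.mk' M x) ∣ 2 ^ k := orderOf_dvd_of_pow_eq_one hk
    have h7 : Nat.Coprime 3 (orderOf (QuotientGroup.mk' M x)) :=
      Nat.Coprime.coprime_dvd_right h6 (Nat.Coprime.pow_right k (by norm_num))
    obtain ⟨m, hm⟩ := exists_pow_eq_self_of_coprime h7
    refine ⟨(x ^ 3) ^ m, ?_, ?_⟩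
    · rw [map_pow, h3 x hz, one_pow]
    · rw [map_pow, map_pow, hm]

end Cfsg.Agent.H109.US
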